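import Cfsg.Agent.H601.K4.InvSplit

/-!
# Three invariant good characters from a stable class of elements of order `p` (S4547; helper601)

* `inv3_of_elt` : `1`, `St` and a third one, if `τ x` is conjugate to `x`, `St` vanishes on `⟨x⟩ ∖ 1`;
* `exists_datP_gen` : the data of the engine for every root group datum of positive rank;
* `goodInv3_of_class`, `goodInv3_of_stab'`.
-/

set_option autoImplicit false
set_option linter.unusedSectionVars false

open scoped ComplexConjugate Classical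
open Cfsg

namespace Cfsg.Agent.H601.K4

open CoxeterSystem Cfsg.Agent.ChevalleyStructure.CoxeterGeom Cfsg.Agent.Tits.Roots Cfsg.Agent.Tits.Core
  Cfsg.Agent.Tits.RootComb Cfsg.Agent.Nodes.Comb Cfsg.Agent.Nodes.Reps Cfsg.Agent.Nodes.BNOf Cfsg.Agent.FixBN
  Cfsg.Agent.Nodes.StabComb Cfsg.Agent.Characters Cfsg.Agent.Characters.Core
  Cfsg.Agent.OddOrderCharacters.Clifford Cfsg.Agent.H618.Sigma
open Cfsg.Agent.Omega.ML.Ex.Typ Cfsg.Agent.Tits.OppRes Cfsg.Agent.H612.BNCosets Cfsg.Agent.H612.BNAut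

universe u

section

variable {G : Type u} [Group G] [Fintype G]

/-- a nontrivial linear character of a nontrivial cyclic group -/
theorem exists_lin {x : G} (hx : x ≠ 1) : ∃ ψ : Subgroup.zpowers x →* ℂˣ, ψ ≠ 1 := by
  let _ : CommGroup (Subgroup.zpowers x) := { (inferInstance : Group (Subgroup.zpowers x)) with
    mul_comm := fun a b => by
      obtain ⟨_, n, rfl⟩ := a
      obtain ⟨_, m, rfl⟩ := b
      exact Subtype.ext (zpow_mul_comm x n m) }
  obtain ⟨ψ, hψ⟩ := CommGroup.exists_apply_ne_one_of_hasEnoughRootsOfUnity (Subgroup.zpowers x) ℂ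
    (a := ⟨x, Subgroup.mem_zpowers x⟩) (fun h => hx (congrArg Subtype.val h))
  refine ⟨ψ, fun h => hψ ?_⟩
  rw [h]
  rfl

/-- **A third one.** -/
theorem inv3_of_elt (hev : Even (Nat.card G)) {St : G → ℂ} (hSt : Good St) (τ : MulAut G)
    (hτ : ∃ (k : ℕ) (s : G), ∀ x, (τ ^ 2 ^ k) x = s * x * s⁻¹) (hτSt : ∀ x, St (τ x) = St x) {x g : G} (hx1 : x ≠ 1)
    (hx2 : Odd (orderOf x)) (hx : τ x = g * x * g⁻¹) (h0 : ∀ y ∈ Subgroup.zpowers x, y ≠ 1 → St y = 0) :
    ∃ χ : Fin 3 → G → ℂ, Function.Injective χ ∧ ∀ i, Good (χ i) ∧ ∀ x, χ i (τ x) = χ i x := by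
  classical
  obtain ⟨V, hV⟩ : ∃ V, V = Subgroup.zpowers x := ⟨_, rfl⟩
  obtain ⟨ψ, hψ⟩ : ∃ ψ : V →* ℂˣ, ψ ≠ 1 := hV ▸ exists_lin hx1
  rw [← hV] at h0
  have : Fintype V := Fintype.ofFinite _
  have hVc : Nat.card V = orderOf x := by rw [hV, Nat.card_zpowers x]
  have hτV : ∀ v ∈ V, τ v = g * v * g⁻¹ := by
    rw [hV]
    rintro _ ⟨n, rfl⟩
    simp only [map_zpow, hx]
    rw [conj_zpow]
  set one : IrrCharacter G := ⟨1, isIrr_one⟩ with hone
  set st : IrrCharacter G := ⟨St, hSt.odd.1⟩ with hst'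
  have gone : Good (one : G → ℂ) := H740.K4.good_one'
  have hψc := isChar_lf ψ
  have hm1 : cmN V (lf ψ) (one : G → ℂ) = 0 := by
    have h1 : cm V (lf ψ) (1 : G → ℂ) = 0 := by
      refine classInner_irr_ne (Linear.isIrrCharacter_hom ψ) isIrr_one fun h => hψ ?_
      exact MonoidHom.ext fun t => Units.ext (congrFun h t)
    have h2 : cm V (lf ψ) (one : G → ℂ) = 0 := h1
    rw [cmN_spec V hψc (isIrr_isCharacter one.2)] at h2
    exact_mod_cast h2
  have hmst : Odd (cmN V (lf ψ) (st : G → ℂ)) := by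
    have h1 : cm V (lf ψ) St = (Nat.card V : ℂ)⁻¹ * St 1 := by
      rw [cm, classInner_def, Finset.sum_eq_single (1 : V)]
      · rw [lf, map_one, Units.val_one, one_mul, Subgroup.coe_one, ← charDegree_eq (isIrr_isCharacter hSt.odd.1),
          Complex.conj_natCast]
      · intro v _ hv
        have h4 : (v : G) ≠ 1 := fun h => hv (Subtype.ext h)
        rw [h0 v v.2 h4, map_zero, mul_zero]
      · exact fun h => absurd (Finset.mem_univ _) h
    have h2 : cm V (lf ψ) St = (cmN V (lf ψ) (st : G → ℂ) : ℂ) := cmN_spec V hψc (isIrr_isCharacter hSt.odd.1)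
    have h3 : (Nat.card V : ℂ) ≠ 0 := card_ne_zero'
    have h4 : ((Nat.card V * cmN V (lf ψ) (st : G → ℂ) : ℕ) : ℂ) = (charDegree St : ℂ) := by
      rw [charDegree_eq (isIrr_isCharacter hSt.odd.1)]
      push_cast
      rw [← h2, h1, mul_inv_cancel_left₀ h3]
    have h5 : Nat.card V * cmN V (lf ψ) (st : G → ℂ) = charDegree St := by exact_mod_cast h4
    have h6 : Odd (charDegree St) := odd_iff.2 hSt.odd.2
    rw [← h5] at h6
    exact (Nat.odd_mul.1 h6).2
  have hne : one ≠ st := by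
    intro h
    rw [← h, hm1] at hmst
    exact absurd hmst (by decide)
  obtain ⟨φ, hφA, hφg, hφτ, -⟩ := exists_good_inv_odd hev V (by rw [hVc]; exact hx2) (Linear.isIrrCharacter_hom ψ)
    (fun χ => cmN V (lf ψ) (χ : G → ℂ)) (fun χ => cm_symm V hψc (isIrr_isCharacter χ.2)) τ hτ (fun χ => by
      have h1 : cm V (lf ψ) (tauI τ χ : G → ℂ) = cm V (lf ψ) (χ : G → ℂ) := by
        rw [cm, cm]
        congr 1
        funext v
        rw [tauI_apply, hτV v v.2]
        exact isIrr_isClassFunction χ.2 v g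
      rw [cmN_spec V hψc (isIrr_isCharacter (tauI τ χ).2), cmN_spec V hψc (isIrr_isCharacter χ.2)] at h1
      exact_mod_cast h1) {one, st} (by
      intro χ hχ
      simp only [Finset.mem_insert, Finset.mem_singleton] at hχ
      rcases hχ with rfl | rfl
      · exact ⟨gone, rfl⟩
      · exact ⟨hSt, (tauI_eq_iff τ st).2 hτSt⟩) (by
      rw [Finset.sum_pair hne, hm1, zero_add]
      exact hmst)
  simp only [Finset.mem_insert, Finset.mem_singleton, not_or] at hφA
  refine ⟨fun i => ((![one, st, φ] i : IrrCharacter G) : G → ℂ), ?_, ?_⟩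
  · intro i j hij
    have h1 : (![one, st, φ] i : IrrCharacter G) = ![one, st, φ] j := Subtype.ext hij
    have h2 := hφA.1
    have h3 := hφA.2
    fin_cases i <;> fin_cases j <;> simp_all
  · intro i
    fin_cases i
    · exact ⟨gone, fun x => rfl⟩
    · exact ⟨hSt, hτSt⟩
    · exact ⟨hφg, fun x => (tauI_eq_iff τ φ).1 hφτ x⟩

end

theorem two_dvd_empty {l : ℕ} {M : CoxeterMatrix (Fin l)} (j : Fin l) {W : Type u} [Group W] [Finite W]
    (cs : CoxeterSystem M W) : 2 ∣ (WJ cs ∅).index := by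
  have h1 : WJ cs ∅ = ⊥ := by
    unfold WJ
    simp
  rw [h1, Subgroup.index_bot]
  have h2 : orderOf (cs.simple j) = 2 := orderOf_eq_prime (by rw [pow_two, cs.simple_mul_simple_self]) (by
    intro h
    have h3 := cs.length_simple j
    rw [h, cs.length_one] at h3
    exact absurd h3 (by norm_num))
  rw [← h2]
  exact orderOf_dvd_natCard _

/-- the data for every root group datum of positive rank -/
theorem exists_datP_gen {l p : ℕ} {M : CoxeterMatrix (Fin l)} {G : Type u} [Group G] [Fintype G] [IsSimpleGroup G]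
    (hp : p.Prime) (hp2 : p ≠ 2) {A : Fin l → Fin l → ℤ} {h : IsCartan M A} {T : Subgroup G} {n : Fin l → G}
    {X : (Fin l → ℤ) → Subgroup G} [Finite M.Group] (R : RGD M.toCoxeterSystem h p T n X)
    (hX : Nodes.RGDLib.G1 M.toCoxeterSystem h X = ⊤)
    (hgen : RGD.B M.toCoxeterSystem h T X ⊔ NN M.toCoxeterSystem R.nsys = ⊤) (j : Fin l) :
    ∃ (U : Subgroup G) (_ : Fintype U)
      (_ : Fintype (R.bnPair hgen).B) (θ : U →* ℂˣ) (St : G → ℂ),
      DatP M p (R.bnPair hgen) U (Equiv.ofInjective n R.n_injective) θ St := by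
  classical
  have : Fact p.Prime := ⟨hp⟩
  have hGG : Nodes.Bruhat.GG M.toCoxeterSystem h T X = ⊤ := by
    rw [eq_top_iff, ← hX]
    exact le_sup_right
  have hne : (R.bnPair hgen).S.Nonempty := ⟨n j, _, rfl⟩
  have hs := SplitRGD.split_of_rgd hp R hgen (Cfsg.Agent.Tits.OfBN.normalCore_eq_bot (R.bnPair hgen) hne)
  have hM := bnType R hgen
  set P := R.bnPair hgen with hP
  set e := Equiv.ofInjective n R.n_injective with he
  set U := RGD.Sup X (RGD.Pos M.toCoxeterSystem h) with hU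
  set B := RGD.B M.toCoxeterSystem h T X with hB
  have hPB : P.B = B := rfl
  have : Fintype U := Fintype.ofFinite _
  have : Fintype P.B := Fintype.ofFinite _
  let hFB : Fintype (RGD.B M.toCoxeterSystem h T X) := (inferInstance : Fintype P.B)
  obtain ⟨St, hSt, hStr, hStU, hStB, hSti⟩ := exists_st hs hp hp2 hM
  have heven := even_index hs hp hp2 hM ∅ (fun cs => two_dvd_empty j cs)
  have hBJ : P.B ≤ PJ P e ∅ := B_le_PJ P e ∅
  obtain ⟨θ, hθ⟩ := exists_theta R
  obtain ⟨g₀, hg₀⟩ := exists_rp M.toCoxeterSystem R.nsys (w0 M.toCoxeterSystem)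
  have hUB : U ≤ P.B := RGD.U_le_B
  refine ⟨U, inferInstance, inferInstance, θ, St, ⟨hs, hM, ?_, hSt, hStr, hStU, ?_, cm_one_ne P.B hStB, hSti⟩⟩
  · exact
      { le := hUB
        norm := hs.norm
        odd := by
          rw [Nat.odd_iff]
          exact Nat.odd_iff.1 (odd_card hs hp hp2)
        even := heven.trans (Subgroup.index_dvd_of_le hBJ)
        ne := by
          rintro rfl
          obtain ⟨l, hl, hlU, hlθ⟩ := hθ j
          exact hlθ rfl
        one := by
          have h1 : (fun t : P.B => (((1 : P.B →* ℂˣ) t : ℂˣ) : ℂ)) = 1 := by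
            funext t
            simp
          have h2 := inner_one (U := U) (B := P.B) θ 1 g₀ (fun u hu hB => inf_eq R hg₀ hu hB) fun x => by
            rcases cover R hGG hg₀ hθ x with h3 | ⟨l, hl, hx, hlθ⟩
            · exact Or.inl h3
            · exact Or.inr ⟨l, hl, hUB hx, hlθ⟩
          rw [h1] at h2
          exact h2
        dis := fun ψ hψ hψU hψ1 χ hχ hc => dis R hGG hψ hψU hψ1 hχ hc }
  · exact cm_reg hStU

section

variable {G : Type u} [Group G] [Fintype G] {l : ℕ} {M : CoxeterMatrix (Fin l)} {p : ℕ} {P : Cfsg.BNPair G}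
  {U : Subgroup G} {e : Fin l ≃ P.S} [Fintype U] [Fintype P.B] {θ : U →* ℂˣ} {St : G → ℂ}

/-- **Three invariant good characters from a stable class of `p`-elements.** -/
theorem DatP.inv3_of_class [Fact p.Prime] (D : DatP M p P U e θ St) {x : G} (hxp : ∃ m : ℕ, x ^ p ^ m = 1)
    (hx1 : x ≠ 1)
    (hcl : ∀ τ : MulAut G, (∃ (k : ℕ) (s : G), ∀ x, (τ ^ 2 ^ k) x = s * x * s⁻¹) → ∃ g : G, τ x = g * x * g⁻¹) :
    GoodInv3 G := by
  classical
  intro τ hτ
  obtain ⟨k, hk⟩ := H740.K4.exists_cube G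
  -- we may assume `x ∈ U`
  obtain ⟨Q, hQ⟩ := H612.CharTwo.exists_sylow D.split
  have hpx : IsPGroup p (Subgroup.zpowers x) := by
    obtain ⟨m, hm⟩ := hxp
    rintro ⟨_, n, rfl⟩
    refine ⟨m, Subtype.ext ?_⟩
    show (x ^ n) ^ p ^ m = 1
    rw [← zpow_natCast, ← zpow_mul, mul_comm, zpow_mul, zpow_natCast, hm, one_zpow]
  obtain ⟨Q', hQ'⟩ := hpx.exists_le_sylow
  obtain ⟨a, ha⟩ := MulAction.exists_smul_eq G Q' Q
  have hmem : ∀ y ∈ Subgroup.zpowers x, a * y * a⁻¹ ∈ U := by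
    intro y hy
    rw [← hQ, ← ha]
    exact ⟨y, hQ' hy, rfl⟩
  have gst : Good St := H740.K4.good_of hk D.odd.1
    ⟨D.real, odd_iff.2 D.odd.2, st_pow D.dat hk D.odd.1 D.stθ D.stB⟩
  have h0 : ∀ y ∈ Subgroup.zpowers x, y ≠ 1 → St y = 0 := by
    intro y hy hy1
    have h1 := isIrr_isClassFunction D.odd.1 y a
    rw [← h1, D.stU _ (hmem y hy), if_neg]
    intro h2
    apply hy1
    have h3 : y = a⁻¹ * (a * y * a⁻¹) * a := by group
    rw [h3, h2]
    group
  have hodd : Odd (orderOf x) := by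
    have h1 := hmem x (Subgroup.mem_zpowers x)
    have h2 : orderOf (a * x * a⁻¹) = orderOf x := by
      have := orderOf_injective (MulAut.conj a).toMonoidHom (MulAut.conj a).injective x
      simpa using this
    have h3 : orderOf (⟨a * x * a⁻¹, h1⟩ : U) = orderOf (a * x * a⁻¹) := by rw [Subgroup.orderOf_mk]
    rw [← h2, ← h3]
    exact D.dat.odd.of_dvd_nat (orderOf_dvd_natCard _)
  obtain ⟨g, hg⟩ := hcl τ hτ
  have hev : Even (Nat.card G) := by
    rw [← Subgroup.card_mul_index P.B]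
    exact (even_iff_two_dvd.2 D.dat.even).mul_left _
  exact inv3_of_elt hev gst τ hτ (D.st_aut τ) hx1 hodd hg h0

end

/-- **The family version.** -/
theorem goodInv3_of_class {S : Type u} [Group S] [Finite S] [IsSimpleGroup S] {p : ℕ} (hp : p.Prime) (hp2 : p ≠ 2) {l : ℕ}
    {M : CoxeterMatrix (Fin l)} (j : Fin l) (h : HasRGDT p M S) {x : S} (hxp : ∃ m : ℕ, x ^ p ^ m = 1) (hx1 : x ≠ 1)
    (hcl : ∀ τ : MulAut S, (∃ (k : ℕ) (s : S), ∀ x, (τ ^ 2 ^ k) x = s * x * s⁻¹) → ∃ g : S, τ x = g * x * g⁻¹) :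
    GoodInv3 S := by
  classical
  have := Fintype.ofFinite S
  have : Fact p.Prime := ⟨hp⟩
  obtain ⟨A, h, T, n, X, hW, R, hX⟩ := h
  have hgen : RGD.B M.toCoxeterSystem h T X ⊔ NN M.toCoxeterSystem R.nsys = ⊤ := by
    rw [eq_top_iff, ← hX]
    exact Nodes.RGDLib.rgd_G1_le R
  obtain ⟨U, _, _, θ, St, D⟩ := exists_datP_gen hp hp2 R hX hgen j
  exact D.inv3_of_class hxp hx1 hcl

end Cfsg.Agent.H601.K4
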