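import Cfsg.Agent.H601.K4.InvSplit
import Cfsg.Agent.H601.K4.LieOdd
import Cfsg.Agent.H601.OddDeg.Rows
import Cfsg.Agent.H612.ModD
import Cfsg.Agent.H809.LabPSU
import Cfsg.Agent.H809.LabTwD4

/-!
# Three invariant good characters of the groups of Lie type of odd characteristic (S4547; helper601)
-/

set_option autoImplicit false
set_option linter.unusedSectionVars false

namespace Cfsg.Agent.H601.K4

open Cfsg Cfsg.Agent.Omega.ML.Ex.Typ Cfsg.Agent.Tits.Core
open Cfsg.Agent.LieRecognition.BNCox (cA)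
open Cfsg.Agent.H601.OddDeg CoxeterSystem Cfsg.Agent.ChevalleyStructure.CoxeterGeom Cfsg.Agent.Tits.Roots
  Cfsg.Agent.Tits.RootComb Cfsg.Agent.Nodes.Comb Cfsg.Agent.Nodes.Reps Cfsg.Agent.Nodes.BNOf Cfsg.Agent.Nodes.StabComb
  Cfsg.Agent.H612.BNCosets

universe u

section

variable {S : Type u} [Group S] [Finite S] [IsSimpleGroup S] {p : ℕ}

theorem goodInv3_of_stab (hp : p.Prime) (hp2 : p ≠ 2) {l : ℕ} {M : CoxeterMatrix (Fin l)} (h : HasRGDT p M S)
    (J : Set (Fin l)) (hJ : J.Nonempty)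
    (hst : ∀ σ : Equiv.Perm (Fin l), (∀ i j, M (σ i) (σ j) = M i j) → σ '' J = J)
    (hidx : ∀ {W : Type u} [Group W] [Finite W] (cs : CoxeterSystem M W), 2 ∣ (WJ cs J).index) : GoodInv3 S := by
  classical
  have := Fintype.ofFinite S
  have : Fact p.Prime := ⟨hp⟩
  obtain ⟨A, h, T, n, X, hW, R, hX⟩ := h
  have hgen : RGD.B M.toCoxeterSystem h T X ⊔ NN M.toCoxeterSystem R.nsys = ⊤ := by
    rw [eq_top_iff, ← hX]
    exact Nodes.RGDLib.rgd_G1_le R
  obtain ⟨U, _, _, θ, St, D⟩ := exists_datP_of hp hp2 R hX hgen J hJ hidx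
  exact D.inv3 hp2 J hJ (fun σ hσ _ => hst σ hσ) hidx

/-- **Rank two groups whose simple root groups have different orders.** -/
theorem goodInv3_of_labT (hp : p.Prime) (hp2 : p ≠ 2) {M : CoxeterMatrix (Fin 2)} (hM : 2 ∣ M 0 1)
    (hS : LabT p M S) : GoodInv3 S := by
  classical
  have := Fintype.ofFinite S
  have : Fact p.Prime := ⟨hp⟩
  obtain ⟨A, h, T, n, X, hW, R, hX, hne⟩ := hS
  have hgen : RGD.B M.toCoxeterSystem h T X ⊔ NN M.toCoxeterSystem R.nsys = ⊤ := by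
    rw [eq_top_iff, ← hX]
    exact Nodes.RGDLib.rgd_G1_le R
  have hPJ : ∀ i, Nat.card (PJ (R.bnPair hgen) (Equiv.ofInjective n R.n_injective) {i}) =
      (1 + Nat.card (X (sr i))) * Nat.card (RGD.B M.toCoxeterSystem h T X) := by
    intro i
    rw [← LabRow.card_panel R hgen i]
    unfold PJ
    have h1 : gens (R.bnPair hgen) (Equiv.ofInjective n R.n_injective) {i} = {n i} := by
      unfold gens
      rw [Set.image_singleton]
      rfl
    rw [h1]
  have hidx : ∀ {W : Type u} [Group W] [Finite W] (cs : CoxeterSystem M W), 2 ∣ (WJ cs {0}).index :=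
    fun cs => Idx.index_single cs 0 (j := 0) (k := 1) (by decide) hM
  obtain ⟨U, _, _, θ, St, D⟩ := exists_datP_of hp hp2 R hX hgen {0} ⟨0, rfl⟩ hidx
  refine D.inv3 hp2 {0} ⟨0, rfl⟩ (fun σ _ hlab => ?_) hidx
  have h0 : σ 0 = 0 := by
    by_contra hcon
    have h1 : σ 0 = 1 := by omega
    have h2 := hlab 0
    rw [h1, hPJ, hPJ] at h2
    have h3 : 0 < Nat.card (RGD.B M.toCoxeterSystem h T X) := Nat.card_pos
    have h4 := Nat.eq_of_mul_eq_mul_right h3 h2
    apply hne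
    omega
  rw [Set.image_singleton, h0]

theorem inv_A (hp : p.Prime) (hp2 : p ≠ 2) {n : ℕ} (hn : 3 ≤ n) (h : HasRGDT p (cA n) S) : GoodInv3 S := by
  refine goodInv3_of_stab hp hp2 h {i | ¬ ((i : ℕ) = 0 ∨ (i : ℕ) = n - 1)} ⟨⟨1, by omega⟩, ?_⟩
    (fun σ hσ => H612.Sym.sym_A σ hσ) ?_
  · simp
    omega
  · intro W _ _ cs
    have h1 := (H612.ModA.model (n := n) (by omega)).card_quotient cs (Nodes.RootsA.isCartan n) (by
      intro i
      rw [H612.ModA.l_apply hn]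
      split_ifs <;> norm_num)
    have h2 : {i : Fin n | H612.ModA.l n (by omega) i = 0} = {i : Fin n | ¬ ((i : ℕ) = 0 ∨ (i : ℕ) = n - 1)} := by
      ext i
      show H612.ModA.l n _ i = 0 ↔ _
      rw [H612.ModA.l_apply hn]
      by_cases h1 : (i : ℕ) = 0 ∨ (i : ℕ) = n - 1
      · rw [if_pos h1]
        exact ⟨fun h => absurd h (by norm_num), fun h => absurd h1 h⟩
      · rw [if_neg h1]
        exact ⟨fun _ => h1, fun _ => rfl⟩
    rw [← h2, h1]
    exact (H612.ModA.even_card n).two_dvd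

theorem inv_B (hp : p.Prime) (hp2 : p ≠ 2) {n : ℕ} (hn : 3 ≤ n) (h : HasRGDT p (CoxeterMatrix.B n) S) :
    GoodInv3 S := by
  refine goodInv3_of_stab hp hp2 h {i | (i : ℕ) ≠ 0} ⟨⟨1, by omega⟩, ?_⟩
    (fun σ hσ => H612.Sym.sym_B hn σ hσ) ?_
  · simp
  · intro W _ _ cs
    have h1 := (H612.ModB.model (n := n) (by omega)).card_quotient cs (Nodes.TypeC.isCartan n) (by
      intro i
      rw [H612.ModB.l_apply (by omega)]
      split_ifs <;> norm_num)
    have h2 : {i : Fin n | H612.ModB.l n (by omega) i = 0} = {i : Fin n | (i : ℕ) ≠ 0} := by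
      ext i
      show H612.ModB.l n _ i = 0 ↔ (i : ℕ) ≠ 0
      rw [H612.ModB.l_apply (by omega)]
      split_ifs <;> simp_all
    rw [← h2, h1, Nat.card_prod, Nat.card_eq_fintype_card (α := Bool), Fintype.card_bool]
    exact ⟨_, mul_comm _ _⟩

/-- type `D`, `PΩ⁺_{2m}(q)`, `m = n + 2 ≥ 4` -/
theorem inv_D (hp : p.Prime) (hp2 : p ≠ 2) {n : ℕ} (hn : 2 ≤ n) (h : HasRGDT p (Nodes.TypeD.M n) S) :
    GoodInv3 S := by
  rcases Nat.lt_or_ge n 3 with h3 | h3
  · obtain rfl : n = 2 := by omega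
    refine goodInv3_of_stab hp hp2 h {1} ⟨1, rfl⟩ (fun σ hσ => ?_) ?_
    · have h1 : ∀ i, ![1, 3, 1, 1] (σ i) = ![1, 3, 1, 1] i :=
        H681.GmnTypes.inv_step hσ (g := fun _ => 1) (fun _ => rfl) (by
          intro i
          simp only [H612.Sym.D_apply]
          revert i
          decide)
      have h2 : ∀ a : Fin 4, ![1, 3, 1, 1] a = 3 → a = 1 := by decide
      have h4 : σ 1 = 1 := h2 _ (by rw [h1]; rfl)
      rw [Set.image_singleton, h4]
    · intro W _ _ cs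
      refine Idx.index_single cs 1 (j := 0) (k := 2) (by decide) ?_
      rw [H612.Sym.D_apply]
      decide
  · refine goodInv3_of_stab hp hp2 h {i | (i : ℕ) ≠ 0} ⟨⟨1, by omega⟩, ?_⟩
      (fun σ hσ => H612.Sym.sym_D h3 σ hσ) ?_
    · simp
    · intro W _ _ cs
      have h1 := (H612.ModD.model n).card_quotient cs (Nodes.TypeD.isCartan n) (by
        intro i
        rw [H612.ModD.l_apply (by omega)]
        split_ifs <;> norm_num)
      have h2 : {i : Fin (n + 2) | H612.ModD.l n i = 0} = {i : Fin (n + 2) | (i : ℕ) ≠ 0} := by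
        ext i
        show H612.ModD.l n i = 0 ↔ (i : ℕ) ≠ 0
        rw [H612.ModD.l_apply (by omega)]
        split_ifs <;> simp_all
      rw [← h2, h1, Nat.card_prod, Nat.card_eq_fintype_card (α := Bool), Fintype.card_bool]
      exact ⟨_, mul_comm _ _⟩

theorem inv_F4 (hp : p.Prime) (hp2 : p ≠ 2) (h : HasRGDT p CoxeterMatrix.F₄ S) : GoodInv3 S := by
  refine goodInv3_of_stab hp hp2 h {0, 3} ⟨0, Or.inl rfl⟩ (fun σ hσ => ?_) ?_
  · have h1 : ∀ i, ![1, 2, 2, 1] (σ i) = ![1, 2, 2, 1] i :=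
      H681.GmnTypes.inv_step hσ (g := fun _ => 1) (fun _ => rfl) (by decide)
    apply H612.Sym.image_eq
    have h2 : ∀ i ∈ ({0, 3} : Set (Fin 4)), ![1, 2, 2, 1] i = 1 := by
      rintro i (rfl | rfl) <;> rfl
    have h3 : ∀ a : Fin 4, ![1, 2, 2, 1] a = 1 → a = 0 ∨ a = 3 := by decide
    intro i hi
    exact h3 _ (by rw [h1, h2 i hi])
  · intro W _ _ cs
    exact Idx.index_pair cs (by decide) (by decide) (k := 1) (l := 2) (by decide) (by decide)

theorem inv_E6 (hp : p.Prime) (hp2 : p ≠ 2) (h : HasRGDT p CoxeterMatrix.E₆ S) : GoodInv3 S := by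
  refine goodInv3_of_stab hp hp2 h {3} ⟨3, rfl⟩ (fun σ hσ => ?_) ?_
  · have h1 : ∀ i, ![1, 1, 2, 3, 2, 1] (σ i) = ![1, 1, 2, 3, 2, 1] i :=
      H681.GmnTypes.inv_step hσ (g := fun _ => 1) (fun _ => rfl) (by decide)
    have h3 : ∀ a : Fin 6, ![1, 1, 2, 3, 2, 1] a = 3 → a = 3 := by decide
    rw [Set.image_singleton, h3 _ (h1 3)]
  · intro W _ _ cs
    exact Idx.index_single cs 3 (j := 0) (k := 1) (by decide) (by decide)

theorem inv_E7 (hp : p.Prime) (hp2 : p ≠ 2) (h : HasRGDT p CoxeterMatrix.E₇ S) : GoodInv3 S := by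
  refine goodInv3_of_stab hp hp2 h {3} ⟨3, rfl⟩ (fun σ hσ => ?_) ?_
  · have h1 : ∀ i, ![1, 1, 2, 3, 2, 2, 1] (σ i) = ![1, 1, 2, 3, 2, 2, 1] i :=
      H681.GmnTypes.inv_step hσ (g := fun _ => 1) (fun _ => rfl) (by decide)
    have h3 : ∀ a : Fin 7, ![1, 1, 2, 3, 2, 2, 1] a = 3 → a = 3 := by decide
    rw [Set.image_singleton, h3 _ (h1 3)]
  · intro W _ _ cs
    exact Idx.index_single cs 3 (j := 0) (k := 1) (by decide) (by decide)

theorem inv_E8 (hp : p.Prime) (hp2 : p ≠ 2) (h : HasRGDT p CoxeterMatrix.E₈ S) : GoodInv3 S := by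
  refine goodInv3_of_stab hp hp2 h {3} ⟨3, rfl⟩ (fun σ hσ => ?_) ?_
  · have h1 : ∀ i, ![1, 1, 2, 3, 2, 2, 2, 1] (σ i) = ![1, 1, 2, 3, 2, 2, 2, 1] i :=
      H681.GmnTypes.inv_step hσ (g := fun _ => 1) (fun _ => rfl) (by decide)
    have h3 : ∀ a : Fin 8, ![1, 1, 2, 3, 2, 2, 2, 1] a = 3 → a = 3 := by decide
    rw [Set.image_singleton, h3 _ (h1 3)]
  · intro W _ _ cs
    exact Idx.index_single cs 3 (j := 0) (k := 1) (by decide) (by decide)

end

end Cfsg.Agent.H601.K4
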