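import Cfsg.Agent.H601.K4.InvParity
import Cfsg.Agent.H601.K4.Rgd
import Cfsg.Agent.H601.OddDeg.BN
import Cfsg.Agent.H601.OddDeg.LabRow

/-!
# Three invariant good characters of a group with a root group datum of odd characteristic (S4547; helper601)

* `exists_datP` : the data of the engine, with the (B,N)-pair;
* `st_aut` : the Steinberg character is invariant under all automorphisms;
* `goodInv3_of_stab` : `GoodInv3` from a nonempty set of nodes `J`, stable under the symmetries of the diagram, with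
  `|W : W_J|` even.
-/

set_option autoImplicit false
set_option linter.unusedSectionVars false

open scoped ComplexConjugate Classical
open Cfsg

namespace Cfsg.Agent.H601.K4

open CoxeterSystem Cfsg.Agent.ChevalleyStructure.CoxeterGeom Cfsg.Agent.Tits.Roots Cfsg.Agent.Tits.Core
  Cfsg.Agent.Tits.RootComb Cfsg.Agent.Nodes.Comb Cfsg.Agent.Nodes.Reps Cfsg.Agent.Nodes.BNOf Cfsg.Agent.FixBN
  Cfsg.Agent.Nodes.StabComb Cfsg.Agent.Characters Cfsg.Agent.Characters.Core
  Cfsg.Agent.OddOrderCharacters.Clifford Cfsg.Agent.H618.Sigma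
open Cfsg.Agent.Omega.ML.Ex.Typ Cfsg.Agent.Tits.OppRes Cfsg.Agent.H612.BNCosets Cfsg.Agent.H612.BNAut

universe u

/-- **The data of the engines, with the (B,N)-pair.** -/
structure DatP {G : Type u} [Group G] [Fintype G] {l : ℕ} (M : CoxeterMatrix (Fin l)) (p : ℕ) (P : Cfsg.BNPair G)
    (U : Subgroup G) (e : Fin l ≃ P.S) [Fintype U] [Fintype P.B] (θ : U →* ℂˣ) (St : G → ℂ) : Prop where
  split : Split P p U
  bn : BNType P M e
  dat : Dat U P.B θ
  odd : OddIrr St
  real : ∀ x, (St x).im = 0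
  stU : ∀ u ∈ U, St u = if u = 1 then (Nat.card U : ℂ) else 0
  stθ : cm U (lf θ) St ≠ 0
  stB : cm P.B 1 St ≠ 0
  stP : ∀ i, OddDeg.mult (PJ P e {i}) St = 0

/-- the data for a root group datum -/
theorem exists_datP_of {l p : ℕ} {M : CoxeterMatrix (Fin l)} {G : Type u} [Group G] [Fintype G] [IsSimpleGroup G]
    (hp : p.Prime) (hp2 : p ≠ 2) {A : Fin l → Fin l → ℤ} {h : IsCartan M A} {T : Subgroup G} {n : Fin l → G}
    {X : (Fin l → ℤ) → Subgroup G} [Finite M.Group] (R : RGD M.toCoxeterSystem h p T n X)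
    (hX : Nodes.RGDLib.G1 M.toCoxeterSystem h X = ⊤)
    (hgen : RGD.B M.toCoxeterSystem h T X ⊔ NN M.toCoxeterSystem R.nsys = ⊤) (J : Set (Fin l)) (hJ : J.Nonempty)
    (hidx : ∀ {W : Type u} [Group W] [Finite W] (cs : CoxeterSystem M W), 2 ∣ (WJ cs J).index) :
    ∃ (U : Subgroup G) (_ : Fintype U)
      (_ : Fintype (R.bnPair hgen).B) (θ : U →* ℂˣ) (St : G → ℂ),
      DatP M p (R.bnPair hgen) U (Equiv.ofInjective n R.n_injective) θ St := by
  classical
  have : Fact p.Prime := ⟨hp⟩
  obtain ⟨j, hj⟩ := hJ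
  have hGG : Nodes.Bruhat.GG M.toCoxeterSystem h T X = ⊤ := by
    rw [eq_top_iff, ← hX]
    exact le_sup_right
  have hne : (R.bnPair hgen).S.Nonempty := ⟨n j, _, rfl⟩
  have hs := SplitRGD.split_of_rgd hp R hgen (Cfsg.Agent.Tits.OfBN.normalCore_eq_bot (R.bnPair hgen) hne)
  have hM := bnType R hgen
  set P := R.bnPair hgen with hP
  set e := Equiv.ofInjective n R.n_injective with he
  set U := RGD.Sup X (RGD.Pos M.toCoxeterSystem h) with hU
  set B := RGD.B M.toCoxeterSystem h T X with hB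
  have hPB : P.B = B := rfl
  have : Fintype U := Fintype.ofFinite _
  have : Fintype P.B := Fintype.ofFinite _
  letI hFB : Fintype (RGD.B M.toCoxeterSystem h T X) := (inferInstance : Fintype P.B)
  obtain ⟨St, hSt, hStr, hStU, hStB, hSti⟩ := exists_st hs hp hp2 hM
  have heven := even_index hs hp hp2 hM J hidx
  have hBJ : P.B ≤ PJ P e J := B_le_PJ P e J
  obtain ⟨θ, hθ⟩ := exists_theta R
  obtain ⟨g₀, hg₀⟩ := exists_rp M.toCoxeterSystem R.nsys (w0 M.toCoxeterSystem)
  have hUB : U ≤ P.B := RGD.U_le_B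
  refine ⟨U, inferInstance, inferInstance, θ, St, ⟨hs, hM, ?_, hSt, hStr, hStU, ?_, cm_one_ne P.B hStB, hSti⟩⟩
  · exact
      { le := hUB
        norm := hs.norm
        odd := by
          rw [Nat.odd_iff]
          exact Nat.odd_iff.1 (odd_card hs hp hp2)
        even := heven.trans (Subgroup.index_dvd_of_le hBJ)
        ne := by
          rintro rfl
          obtain ⟨l, hl, hlU, hlθ⟩ := hθ j
          exact hlθ rfl
        one := by
          have h1 : (fun t : P.B => (((1 : P.B →* ℂˣ) t : ℂˣ) : ℂ)) = 1 := by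
            funext t
            simp
          have h2 := inner_one (U := U) (B := P.B) θ 1 g₀ (fun u hu hB => inf_eq R hg₀ hu hB) fun x => by
            rcases cover R hGG hg₀ hθ x with h3 | ⟨l, hl, hx, hlθ⟩
            · exact Or.inl h3
            · exact Or.inr ⟨l, hl, hUB hx, hlθ⟩
          rw [h1] at h2
          exact h2
        dis := fun ψ hψ hψU hψ1 χ hχ hc => dis R hGG hψ hψU hψ1 hχ hc }
  · have h1 : cm U (lf θ) St = 1 := by
      rw [cm, classInner_def, Finset.sum_eq_single (1 : U)]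
      · have h2 : (Nat.card U : ℂ) ≠ 0 := card_ne_zero'
        have h3 := hStU 1 (one_mem U)
        rw [if_pos rfl] at h3
        rw [lf, map_one, Units.val_one, one_mul, Subgroup.coe_one, h3, Complex.conj_natCast]
        exact inv_mul_cancel₀ h2
      · intro u _ hu
        have h4 : (u : G) ≠ 1 := fun h => hu (Subtype.ext h)
        rw [hStU u u.2, if_neg h4, map_zero, mul_zero]
      · exact fun h => absurd (Finset.mem_univ _) h
    rw [h1]
    exact one_ne_zero

section

variable {G : Type u} [Group G] [Fintype G] {l : ℕ} {M : CoxeterMatrix (Fin l)} {p : ℕ} {P : Cfsg.BNPair G}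
  {U : Subgroup G} {e : Fin l ≃ P.S} [Fintype U] [Fintype P.B] {θ : U →* ℂˣ} {St : G → ℂ}

theorem cm_reg {χ : G → ℂ} (h : ∀ u ∈ U, χ u = if u = 1 then (Nat.card U : ℂ) else 0) : cm U (lf θ) χ ≠ 0 := by
  have h1 : cm U (lf θ) χ = 1 := by
    rw [cm, classInner_def, Finset.sum_eq_single (1 : U)]
    · have h2 : (Nat.card U : ℂ) ≠ 0 := card_ne_zero'
      have h3 := h 1 (one_mem U)
      rw [if_pos rfl] at h3
      rw [lf, map_one, Units.val_one, one_mul, Subgroup.coe_one, h3, Complex.conj_natCast]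
      exact inv_mul_cancel₀ h2
    · intro u _ hu
      have h4 : (u : G) ≠ 1 := fun h => hu (Subtype.ext h)
      rw [h u u.2, if_neg h4, map_zero, mul_zero]
    · exact fun h => absurd (Finset.mem_univ _) h
  rw [h1]
  exact one_ne_zero

omit [Fintype U] [Fintype P.B] in
/-- an automorphism preserves the class of `U` -/
theorem exists_conjU [Fact p.Prime] (hs : Split P p U) (τ : MulAut G) :
    ∃ g : G, ∀ x, g⁻¹ * τ x * g ∈ U ↔ x ∈ U := by
  obtain ⟨Q, hQ⟩ := H612.CharTwo.exists_sylow hs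
  obtain ⟨g, hg⟩ := MulAction.exists_smul_eq G Q (Q.mapSurjective (f := τ.toMonoidHom) τ.surjective)
  refine ⟨g, fun x => ?_⟩
  have h1 : U.map τ.toMonoidHom = cj g U := by
    have h2 : ((g • Q : Sylow p G) : Subgroup G) = (Q : Subgroup G).map τ.toMonoidHom := by
      rw [hg]
      exact Sylow.coe_mapSurjective _ _
    rw [← hQ, ← h2]
    rfl
  constructor
  · intro hx
    have h3 : τ x ∈ cj g U := by
      have h4 := (conj_mem_cj (g := g)).2 hx
      have h5 : g * (g⁻¹ * τ x * g) * g⁻¹ = τ x := by group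
      rwa [h5] at h4
    rw [← h1] at h3
    obtain ⟨y, hy, hyx⟩ := h3
    rwa [← τ.injective hyx]
  · intro hx
    have h3 : τ x ∈ cj g U := by
      rw [← h1]
      exact ⟨x, hx, rfl⟩
    obtain ⟨y, hy, hyx⟩ := h3
    have h4 : g * y * g⁻¹ = τ x := hyx
    rw [← h4]
    have h5 : g⁻¹ * (g * y * g⁻¹) * g = y := by group
    rwa [h5]

/-- **The Steinberg character is invariant under all automorphisms.** -/
theorem DatP.st_aut [Fact p.Prime] (D : DatP M p P U e θ St) (τ : MulAut G) (x : G) : St (τ x) = St x := by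
  obtain ⟨g, hgU⟩ := exists_conjU D.split τ
  have hg : ∀ b, g⁻¹ * τ b * g ∈ P.B ↔ b ∈ P.B := by
    intro b
    rw [← D.split.normalizer_eq, Subgroup.mem_normalizer_iff, Subgroup.mem_normalizer_iff]
    let α : G ≃* G := τ.trans (MulAut.conj g⁻¹)
    have hα' : ∀ b, g⁻¹ * τ b * g = α b := by
      intro b
      change _ = (MulAut.conj g⁻¹) (τ b)
      simp
    have hα : ∀ b, α b ∈ U ↔ b ∈ U := fun b => by rw [← hα']; exact hgU b
    rw [hα']
    constructor
    · intro h u
      rw [← hα u, h, ← map_inv, ← map_mul, ← map_mul, hα]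
    · intro h u
      obtain ⟨v, rfl⟩ := α.surjective u
      rw [hα, h, ← map_inv, ← map_mul, ← map_mul, hα]
  have hcl := isIrr_isClassFunction D.odd.1
  have h1 : IsIrrCharacter G (fun x => St (τ x)) := isIrr_comp τ.toMonoidHom τ.surjective D.odd.1
  have h3 : cm P.B 1 (fun x => St (τ x)) ≠ 0 := by
    have h4 := perm_inv P.B τ hg ⟨St, D.odd.1⟩
    rw [← cm_eq P.B (isIrr_isClassFunction (tauI τ ⟨St, D.odd.1⟩).2), ← cm_eq P.B hcl] at h4
    have h5 : cm P.B 1 (fun x => St (τ x)) = cm P.B 1 St := h4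
    rw [h5]
    exact D.stB
  have h2 : cm U (lf θ) (fun x => St (τ x)) ≠ 0 := by
    apply cm_reg
    intro u hu
    by_cases hu1 : u = 1
    · rw [if_pos hu1, hu1, map_one, D.stU 1 (one_mem U), if_pos rfl]
    · rw [if_neg hu1]
      -- `g⁻¹ * τ u * g` is in `U`
      have h5 : g⁻¹ * τ u * g ∈ U := (hgU u).2 hu
      have h6 : g⁻¹ * τ u * g ≠ 1 := by
        intro h7
        apply hu1
        have h8 : τ u = 1 := by
          have : τ u = g * (g⁻¹ * τ u * g) * g⁻¹ := by group
          rw [this, h7]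
          group
        rwa [map_eq_one_iff _ τ.injective] at h8
      have h7 := D.stU _ h5
      rw [if_neg h6] at h7
      have h8 := hcl (τ u) g⁻¹
      rw [inv_inv] at h8
      rw [← h8]
      exact h7
  exact congrFun (unique_both U P.B (isChar_lf θ) isCharacter_one D.dat.one h1 D.odd.1 h2 h3 D.stθ D.stB).1 x

/-- **Three invariant good characters.** -/
theorem DatP.inv3 [Fact p.Prime] (hp2 : p ≠ 2) (D : DatP M p P U e θ St) (J : Set (Fin l)) (hJ : J.Nonempty)
    (hst : ∀ σ : Equiv.Perm (Fin l), (∀ i j, M (σ i) (σ j) = M i j) →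
      (∀ i, Nat.card (PJ P e {σ i}) = Nat.card (PJ P e {i})) → σ '' J = J)
    (hidx : ∀ {W : Type u} [Group W] [Finite W] (cs : CoxeterSystem M W), 2 ∣ (WJ cs J).index) : GoodInv3 G := by
  classical
  intro τ hτ
  obtain ⟨k, hk⟩ := H740.K4.exists_cube G
  have : Fintype (PJ P e J) := Fintype.ofFinite _
  have hp : p.Prime := Fact.out
  have heven := even_index D.split hp hp2 D.bn J hidx
  set one : IrrCharacter G := ⟨1, isIrr_one⟩ with hone
  set st : IrrCharacter G := ⟨St, D.odd.1⟩ with hst'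
  have gone : H740.K4.Good k (one : G → ℂ) := H740.K4.good_one hk
  have gst : H740.K4.Good k (st : G → ℂ) :=
    ⟨D.real, odd_iff.2 D.odd.2, st_pow D.dat hk D.odd.1 D.stθ D.stB⟩
  -- the class of `P_J` is stable
  obtain ⟨g, hg⟩ : ∃ g : G, ∀ x, g⁻¹ * τ x * g ∈ PJ P e J ↔ x ∈ PJ P e J := by
    obtain ⟨hN, cs, hcs⟩ := D.bn
    obtain ⟨g, hg⟩ := TwOfBN.exists_conj D.split τ
    refine ⟨g, ?_⟩
    let α : G ≃* G := τ.trans (MulAut.conj g⁻¹)
    have hα' : ∀ b, α b = g⁻¹ * τ b * g := by
      intro b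
      change (MulAut.conj g⁻¹) (τ b) = _
      simp
    have hα : ∀ b, α b ∈ P.B ↔ b ∈ P.B := fun b => by rw [hα']; exact hg b
    have hmap : P.B.map α.toMonoidHom = P.B := by
      ext x
      constructor
      · rintro ⟨b, hb, rfl⟩
        exact (hα b).2 hb
      · intro hx
        exact ⟨α.symm x, (hα _).1 (by rwa [α.apply_symm_apply]), α.apply_symm_apply x⟩
    obtain ⟨σ, hσ⟩ := exists_perm P e α hmap
    have hσJ := hst σ (label_eq P e cs hcs α hmap σ hσ) (fun i => by
      have h1 := hσ {i}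
      rw [Set.image_singleton] at h1
      rw [← h1]
      exact Nat.card_congr ((PJ P e {i}).equivMapOfInjective α.toMonoidHom α.injective).toEquiv.symm)
    intro x
    rw [← hα']
    have h1 := hσ J
    rw [hσJ] at h1
    constructor
    · intro hx
      rw [← h1] at hx
      obtain ⟨y, hy, hyx⟩ := hx
      rwa [← α.injective hyx]
    · intro hx
      rw [← h1]
      exact ⟨x, hx, rfl⟩
  obtain ⟨φ, hφ1, hφg, hφτ, hφJ⟩ := exists_good_inv hk (isChar_perm (PJ P e J)) (perm_one (PJ P e J))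
    (perm_im (PJ P e J)) (perm_pow (PJ P e J) hk) τ hτ (perm_inv (PJ P e J) τ hg) {one}
    (by
      intro χ hχ
      rw [Finset.mem_singleton.1 hχ]
      exact ⟨gone, rfl⟩) (by
      rw [Finset.sum_singleton, mul_perm, cmN_one_self, Nat.odd_iff]
      omega)
  rw [mul_perm] at hφJ
  have hφ1' : φ ≠ one := fun h => hφ1 (Finset.mem_singleton.2 h)
  have hφJ' : cm (PJ P e J) 1 (φ : G → ℂ) ≠ 0 :=
    cm_ne_of_cmN isCharacter_one (isIrr_isCharacter φ.2) (odd_iff.1 hφJ)
  have hφSt : φ ≠ st := by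
    rintro rfl
    obtain ⟨i, hi⟩ := hJ
    apply hφJ'
    rw [cm_one_eq_mult]
    have h1 : OddDeg.mult (PJ P e J) St = 0 := by
      by_contra h2
      exact OddDeg.mult_ne_zero_of_le ((H612.BNAut.PJ_le_iff P e).2 (Set.singleton_subset_iff.2 hi))
        (isIrr_isCharacter D.odd.1) h2 (D.stP i)
    have h3 : OddDeg.mult (PJ P e J) (st : G → ℂ) = 0 := h1
    rw [h3, map_zero]
  have hst1 : st ≠ one := by
    intro h
    have h2 : cm U (lf θ) (1 : G → ℂ) = 0 := by
      refine classInner_irr_ne (Linear.isIrrCharacter_hom θ) isIrr_one fun h => D.dat.ne ?_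
      ext t
      exact congrFun h t
    apply D.stθ
    have h3 : St = 1 := congrArg Subtype.val h
    rw [h3]
    exact h2
  refine ⟨fun i => ((![one, st, φ] i : IrrCharacter G) : G → ℂ), ?_, ?_⟩
  · intro i j hij
    have h1 : (![one, st, φ] i : IrrCharacter G) = ![one, st, φ] j := Subtype.ext hij
    fin_cases i <;> fin_cases j <;> simp_all
  · intro i
    fin_cases i
    · exact ⟨H740.K4.good_of hk one.2 gone, fun x => rfl⟩
    · exact ⟨H740.K4.good_of hk st.2 gst, fun x => D.st_aut τ x⟩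
    · exact ⟨H740.K4.good_of hk φ.2 hφg, fun x => (tauI_eq_iff τ φ).1 hφτ x⟩

end

end Cfsg.Agent.H601.K4
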